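import Mathlib

/-!
# `GL₂(3)` is generated by its involutions (helper244)
-/

set_option autoImplicit false

namespace Cfsg.Agent.H244.GLGen

open Matrix

theorem aux : ∀ a b c d : ZMod 3, a * d - b * c = 1 → ∃ p q r s : ZMod 3,
    (p * p + q * r = 1 ∧ p * q + q * s = 0 ∧ r * p + s * r = 0 ∧ r * q + s * s = 1) ∧
    ((p * a + q * c) * (p * a + q * c) + (p * b + q * d) * (r * a + s * c) = 1 ∧
      (p * a + q * c) * (p * b + q * d) + (p * b + q * d) * (r * b + s * d) = 0 ∧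
      (r * a + s * c) * (p * a + q * c) + (r * b + s * d) * (r * a + s * c) = 0 ∧
      (r * a + s * c) * (p * b + q * d) + (r * b + s * d) * (r * b + s * d) = 1) := by
  decide +kernel

/-- Every element of determinant one is a product of two elements of square one. -/
theorem exists_mul_of_det_eq_one (g : GL (Fin 2) (ZMod 3))
    (hg : g.1 0 0 * g.1 1 1 - g.1 0 1 * g.1 1 0 = 1) :
    ∃ x : GL (Fin 2) (ZMod 3), x * x = 1 ∧ (x * g) * (x * g) = 1 := by
  obtain ⟨p, q, r, s, ⟨h1, h2, h3, h4⟩, h5, h6, h7, h8⟩ := aux _ _ _ _ hg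
  have hx : !![p, q; r, s] * !![p, q; r, s] = (1 : Matrix (Fin 2) (Fin 2) (ZMod 3)) := by
    ext i j
    fin_cases i <;> fin_cases j <;> simp [Matrix.mul_apply, Fin.sum_univ_two] <;> assumption
  refine ⟨⟨!![p, q; r, s], !![p, q; r, s], hx, hx⟩, Units.ext hx, Units.ext ?_⟩
  change (!![p, q; r, s] * g.1) * (!![p, q; r, s] * g.1) = 1
  rw [Matrix.eta_fin_two g.1]
  ext i j
  fin_cases i <;> fin_cases j <;> simp [Matrix.mul_apply, Fin.sum_univ_two] <;> assumption

/-- The reflection `diag(1, -1)`. -/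
def refl : GL (Fin 2) (ZMod 3) := ⟨!![1, 0; 0, 2], !![1, 0; 0, 2], by decide, by decide⟩

theorem refl_mul_refl : refl * refl = 1 := Units.ext (by decide)

theorem refl_ne_one : refl ≠ 1 := by
  intro h
  have h1 := congrArg (fun g : GL (Fin 2) (ZMod 3) => g.1 1 1) h
  revert h1
  change ((2 : ZMod 3) = 1) → False
  decide

/-- An element not commuting with the reflection. -/
def swp : GL (Fin 2) (ZMod 3) := ⟨!![0, 1; 1, 0], !![0, 1; 1, 0], by decide, by decide⟩

theorem refl_not_comm : swp * refl ≠ refl * swp := by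
  intro h
  have h1 := congrArg Units.val h
  change !![0, 1; 1, 0] * !![1, 0; 0, 2] = !![1, 0; 0, 2] * !![0, 1; 1, (0 : ZMod 3)] at h1
  revert h1
  decide

theorem det_cases (g : GL (Fin 2) (ZMod 3)) : g.1 0 0 * g.1 1 1 - g.1 0 1 * g.1 1 0 = 1 ∨
    g.1 0 0 * g.1 1 1 - g.1 0 1 * g.1 1 0 = 2 := by
  have h : g.1 0 0 * g.1 1 1 - g.1 0 1 * g.1 1 0 ≠ 0 := by
    rw [← Matrix.det_fin_two]
    exact ((Matrix.isUnit_iff_isUnit_det g.1).1 g.isUnit).ne_zero
  revert h
  generalize g.1 0 0 * g.1 1 1 - g.1 0 1 * g.1 1 0 = d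
  revert d
  decide

theorem det_mul_refl (g : GL (Fin 2) (ZMod 3))
    (hg : g.1 0 0 * g.1 1 1 - g.1 0 1 * g.1 1 0 = 2) :
    (g * refl).1 0 0 * (g * refl).1 1 1 - (g * refl).1 0 1 * (g * refl).1 1 0 = 1 := by
  have h : (g * refl).1 = !![g.1 0 0, g.1 0 1; g.1 1 0, g.1 1 1] * !![1, 0; 0, 2] := by
    change g.1 * _ = _
    conv_lhs => rw [Matrix.eta_fin_two g.1]
    rfl
  rw [h]
  simp [Matrix.mul_apply, Fin.sum_univ_two]
  have h2 : g.1 0 0 * (g.1 1 1 * 2) - g.1 0 1 * 2 * g.1 1 0 =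
    2 * (g.1 0 0 * g.1 1 1 - g.1 0 1 * g.1 1 0) := by ring
  rw [h2, hg]
  decide

/-- A subgroup containing all elements of square one is everything. -/
theorem eq_top_of_sq (D : Subgroup (GL (Fin 2) (ZMod 3))) (h : ∀ x, x * x = 1 → x ∈ D) :
    D = ⊤ := by
  have key : ∀ g : GL (Fin 2) (ZMod 3), g.1 0 0 * g.1 1 1 - g.1 0 1 * g.1 1 0 = 1 → g ∈ D := by
    intro g hg
    obtain ⟨x, hx, hxg⟩ := exists_mul_of_det_eq_one g hg
    have h1 := D.mul_mem (h x hx) (h _ hxg)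
    rwa [← mul_assoc, hx, one_mul] at h1
  rw [Subgroup.eq_top_iff']
  intro g
  rcases det_cases g with hg | hg
  · exact key g hg
  · have h1 := D.mul_mem (key _ (det_mul_refl g hg)) (h refl refl_mul_refl)
    rwa [mul_assoc, refl_mul_refl, mul_one] at h1

end Cfsg.Agent.H244.GLGen
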