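import Cfsg.Agent.H252.RootSys
import Cfsg.Agent.H258.SLtwo
import Cfsg.Agent.PLocal.ElemAbSup
import Cfsg.Agent.H258.Final

/-!
# `|S : C_S(W)| = q` for a rank one block (S2979)
-/

set_option autoImplicit false
set_option linter.unusedSectionVars false
set_option linter.unusedVariables false

namespace Cfsg.Agent.H244.RootCard

open Subgroup Cfsg Matrix Cfsg.Agent.H258.Sub Cfsg.Agent.H258.Bau Cfsg.Agent.H252.RootSys
open Cfsg.Agent.PLocal.ThompsonJ Cfsg.Agent.H258.SLtwo

universe u

variable {G : Type u} [Group G] [Finite G] {p q : ℕ} [hp : Fact p.Prime]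

theorem norm_J_le (T : Sylow p G) (hJ : thompsonSubgroupOf p (T : Subgroup G) ≠ ⊥) :
    normalizer (thompsonSubgroupOf p (T : Subgroup G) : Set G) ≤ cStarOf p (T : Subgroup G) := by
  refine le_trans ?_ le_sup_right
  exact le_iSup (fun C : {C : Subgroup G // C ≤ baumannSubgroupOf p (T : Subgroup G) ∧ C ≠ ⊥ ∧
    (C.subgroupOf (baumannSubgroupOf p (T : Subgroup G))).Characteristic} => Subgroup.normalizer ((C : Subgroup G) : Set G))
    ⟨_, thompsonSubgroupOf_le_baumann _, hJ, Cfsg.Agent.H258.Final.thompson_char T⟩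

/-- `J(T)` does not centralise `W` -/
theorem J_not_le (T : Sylow p G) {C F W Ah : Subgroup G} (hC : cStarOf p (T : Subgroup G) ≤ C) (hn : ¬ F ≤ C)
    (h : S12 p q (baumannSubgroupOf p (T : Subgroup G)) F W Ah) (hW : IsElementaryAbelian p W) (hWne : W ≠ ⊥) :
    ¬ thompsonSubgroupOf p (T : Subgroup G) ≤ centralizer (W : Set G) := by
  intro hJ
  obtain ⟨S, hS⟩ : ∃ S, S = baumannSubgroupOf p (T : Subgroup G) := ⟨_, rfl⟩
  rw [← hS] at h
  obtain ⟨hWc, hWp⟩ := isElementaryAbelian_iff.1 hW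
  have hWQ : W ≤ S ⊓ centralizer (W : Set G) := le_inf h.WS fun w hw w' hw' => hWc w' hw' w hw
  have hJQ : thompsonSubgroupOf p (T : Subgroup G) ≤ S ⊓ centralizer (W : Set G) :=
    le_inf (by rw [hS]; exact thompsonSubgroupOf_le_baumann _) hJ
  have hQp : IsPGroup p ↥(S ⊓ centralizer (W : Set G)) := h.pS.to_le inf_le_left
  have h1 := thompsonSubgroupOf_eq T hQp hJQ
  have hFQ : F ≤ normalizer ((S ⊓ centralizer (W : Set G) : Subgroup G) : Set G) := by
    intro f hf
    have key : ∀ f ∈ F, ∀ c ∈ S ⊓ centralizer (W : Set G), f * c * f⁻¹ ∈ S ⊓ centralizer (W : Set G) := by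
      intro f hf c hc
      have h2 := h.QF c hc.1 hc.2 f hf
      have h3 : f * c * f⁻¹ = (c * f * c⁻¹ * f⁻¹)⁻¹ * c := by group
      rw [h3]
      exact mul_mem (inv_mem (hWQ h2)) hc
    refine mem_norm_of (fun a ha => key f hf a ha) fun a ha => ?_
    have h4 := key f⁻¹ (inv_mem hf) a ha
    rwa [inv_inv] at h4
  have hJne : thompsonSubgroupOf p (T : Subgroup G) ≠ ⊥ := by
    intro h0
    obtain ⟨B, hB, hBT⟩ := exists_max_le_sylow T
    have hBJ : B ≤ thompsonSubgroupOf p (T : Subgroup G) := by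
      rw [thompsonSubgroupOf_sylow_eq T]
      exact le_sSup ⟨hB, hBT⟩
    have hB0 : Nat.card B = 1 := by rw [Subgroup.card_eq_one, eq_bot_iff, ← h0]; exact hBJ
    have h5 := hB.2 W hW
    rw [hB0] at h5
    apply hWne
    exact Subgroup.card_eq_one.1 (le_antisymm h5 Nat.card_pos)
  apply hn
  refine le_trans ?_ ((norm_J_le T hJne).trans hC)
  rw [← h1]
  exact hFQ.trans (normalizer_le_normalizer_thompsonSubgroupOf _)

/-- **`|S : C_S(W)| = q`** -/
theorem card_q (T : Sylow p G) {C F W Ah : Subgroup G} (hC : cStarOf p (T : Subgroup G) ≤ C) (hn : ¬ F ≤ C)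
    (h : S12 p q (baumannSubgroupOf p (T : Subgroup G)) F W Ah) (hW : IsElementaryAbelian p W) :
    (baumannSubgroupOf p (T : Subgroup G) ⊓ centralizer (W : Set G)).relIndex (baumannSubgroupOf p (T : Subgroup G)) = q := by
  have hJ := fun hne => J_not_le T hC hn h hW hne
  obtain ⟨S, hS⟩ : ∃ S, S = baumannSubgroupOf p (T : Subgroup G) := ⟨_, rfl⟩
  rw [← hS] at h ⊢
  obtain ⟨K, iK, iK', hK, hEN, hUU, ρ, ψ, hρ, hψ, hker, hact⟩ := h.nat
  have hq1 : 1 < q := by rw [← hK]; exact Fintype.one_lt_card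
  have hWne : W ≠ ⊥ := by
    intro h0
    obtain ⟨u, hu⟩ := hψ (Multiplicative.ofAdd (fun _ => (1 : K)))
    have hu1 : u = 1 := by
      apply Subtype.ext
      have h1 : (u : G) ∈ (⊥ : Subgroup G) := by rw [← h0]; exact u.2
      exact mem_bot.1 h1
    rw [hu1, map_one] at hu
    have h1 := congrFun (congrArg Multiplicative.toAdd hu) 0
    exact zero_ne_one h1
  replace hJ := hJ hWne
  obtain ⟨hWc, hWp⟩ := isElementaryAbelian_iff.1 hW
  have hSL : S ≤ F ⊔ S := le_sup_right
  -- the characteristic of `K`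
  have hch : CharP K p := by
    obtain ⟨n, hn1, hn2⟩ := FiniteField.card K (ringChar K)
    have h1 : p = ringChar K := by
      obtain ⟨u, hu⟩ := hψ (Multiplicative.ofAdd (fun _ => (1 : K)))
      have h2 : u ^ p = 1 := Subtype.ext (by simpa using hWp u u.2)
      have h3 := congrArg ψ h2
      rw [map_pow, hu, map_one] at h3
      have h4 := congrFun (congrArg Multiplicative.toAdd h3) 0
      have h5 : (p : K) = 0 := by simpa using h4
      have h6 := ringChar.dvd h5
      exact ((Nat.prime_dvd_prime_iff_eq hn1 hp.out).1 h6).symm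
    rw [h1]
    infer_instance
  -- the kernel of `ρ` on `S`
  have hk1 : ∀ s : ↥(F ⊔ S), ρ s = 1 → (s : G) ∈ S ∧ (s : G) ∈ centralizer (W : Set G) := by
    intro s hs
    refine h.ker s s.2 fun w hw => ?_
    obtain ⟨w', hw', e⟩ := hact s ⟨w, hw⟩
    rw [hs, Matrix.SpecialLinearGroup.coe_one, Matrix.one_mulVec] at e
    have e2 : ψ (w' * (⟨w, hw⟩ : ↥W)⁻¹) = 1 := by
      rw [map_mul, map_inv, Multiplicative.toAdd.injective e, mul_inv_cancel]
    have e3 := (hker _).1 e2
    rw [Subgroup.coe_mul, Subgroup.coe_inv, hw'] at e3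
    exact e3.2
  have hk2 : ∀ s : ↥(F ⊔ S), (s : G) ∈ centralizer (W : Set G) → ρ s = 1 := by
    intro s hs
    apply ext_mulVec
    intro m
    obtain ⟨u, hu⟩ := hψ (Multiplicative.ofAdd m)
    obtain ⟨w', hw', e⟩ := hact s u
    have e1 : w' = u := by
      apply Subtype.ext
      rw [hw', ← hs u u.2, mul_inv_cancel_right]
    rw [e1, hu] at e
    rw [Matrix.SpecialLinearGroup.coe_one, Matrix.one_mulVec]
    exact e.symm
  -- upper bound
  have hub : (S ⊓ centralizer (W : Set G)).relIndex S ≤ q := by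
    let f : ↥S →* SpecialLinearGroup (Fin 2) K := ρ.comp (Subgroup.inclusion hSL)
    have h1 : f.ker = (S ⊓ centralizer (W : Set G)).subgroupOf S := by
      ext s
      rw [MonoidHom.mem_ker, mem_subgroupOf]
      constructor
      · intro e
        exact ⟨s.2, (hk1 _ e).2⟩
      · rintro ⟨-, e⟩
        exact hk2 (Subgroup.inclusion hSL s) e
    rw [relIndex, ← h1, Subgroup.index_ker, ← hK, ← Nat.card_eq_fintype_card]
    have h2 : IsPGroup p f.range := by
      rintro ⟨_, s, rfl⟩
      obtain ⟨k, hk⟩ := h.pS s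
      refine ⟨k, Subtype.ext ?_⟩
      show f s ^ p ^ k = 1
      rw [← map_pow, hk, map_one]
    exact card_le p h2
  refine le_antisymm hub ?_
  -- lower bound
  obtain ⟨A, hA, hAT, hAW⟩ : ∃ A ∈ maxElementaryAbelianSubgroups p G, A ≤ (T : Subgroup G) ∧ ¬ A ≤ centralizer (W : Set G) := by
    by_contra hcon
    push Not at hcon
    apply hJ
    rw [thompsonSubgroupOf_sylow_eq T]
    exact sSup_le fun A hA => hcon A hA.1 hA.2
  have hAS : A ≤ S := by
    rw [hS]
    refine le_trans ?_ (thompsonSubgroupOf_le_baumann _)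
    rw [thompsonSubgroupOf_sylow_eq T]
    exact le_sSup ⟨hA, hAT⟩
  obtain ⟨a, ha, ha'⟩ := SetLike.not_le_iff_exists.1 hAW
  -- `q |C_W(A)| ≤ |W|`
  have h1 : q * Nat.card ↥(W ⊓ centralizer (A : Set G)) ≤ Nat.card W := by
    have hρa : ρ ⟨a, hSL (hAS ha)⟩ ≠ 1 := fun e => ha' (hk1 _ e).2
    have h2 := card_fixv_le hρa
    let U : Subgroup ↥W := (AddSubgroup.toSubgroup (fixv (ρ ⟨a, hSL (hAS ha)⟩)).toAddSubgroup).comap ψ
    have h3 : (W ⊓ centralizer (A : Set G)).subgroupOf W ≤ U := by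
      intro u hu
      rw [mem_subgroupOf] at hu
      show Multiplicative.toAdd (ψ u) ∈ fixv (ρ ⟨a, hSL (hAS ha)⟩)
      rw [mem_fixv]
      obtain ⟨w', hw', e⟩ := hact ⟨a, hSL (hAS ha)⟩ u
      have e1 : w' = u := by
        apply Subtype.ext
        rw [hw']
        show a * u * a⁻¹ = u
        rw [hu.2 a ha, mul_inv_cancel_right]
      rw [e1] at e
      exact e.symm
    have h4 : U.index = (AddSubgroup.toSubgroup (fixv (ρ ⟨a, hSL (hAS ha)⟩)).toAddSubgroup).index :=
      Subgroup.index_comap_of_surjective _ hψ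
    have h5 : U.index * Nat.card (fixv (ρ ⟨a, hSL (hAS ha)⟩)) = q * q := by
      rw [h4, mul_comm]
      have h6 := Subgroup.card_mul_index (AddSubgroup.toSubgroup (fixv (ρ ⟨a, hSL (hAS ha)⟩)).toAddSubgroup)
      have h7 : Nat.card (Multiplicative (Fin 2 → K)) = q * q := by
        rw [← hK, ← sq, ← Nat.card_eq_fintype_card]
        show Nat.card (Fin 2 → K) = _
        rw [Nat.card_fun, Nat.card_eq_fintype_card (α := Fin 2), Fintype.card_fin]
      rw [h7] at h6
      exact h6
    have h6 : q ≤ U.index := by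
      rw [Nat.card_eq_fintype_card (α := K), hK] at h2
      by_contra hcon
      push Not at hcon
      have h8 : U.index * Nat.card (fixv (ρ ⟨a, hSL (hAS ha)⟩)) < q * q := by
        calc U.index * Nat.card (fixv (ρ ⟨a, hSL (hAS ha)⟩)) ≤ U.index * q := Nat.mul_le_mul_left _ h2
          _ < q * q := by nlinarith
      omega
    have h7 := Subgroup.card_mul_index U
    have h8 : Nat.card ↥(W ⊓ centralizer (A : Set G)) ≤ Nat.card U := by
      have h9 : Nat.card ↥((W ⊓ centralizer (A : Set G)).subgroupOf W) = Nat.card ↥(W ⊓ centralizer (A : Set G)) :=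
        Nat.card_congr (Subgroup.subgroupOfEquivOfLe inf_le_left).toEquiv
      rw [← h9]
      exact Subgroup.card_le_of_le h3
    calc q * Nat.card ↥(W ⊓ centralizer (A : Set G)) ≤ U.index * Nat.card U := Nat.mul_le_mul h6 h8
      _ = Nat.card W := by rw [mul_comm]; exact h7
  -- the offender inequality
  have h2 := Cfsg.Agent.PLocal.ElemAbSup.card_mul_card_centralizer_le hA hW (inf_le_left : A ⊓ centralizer (W : Set G) ≤ A)
  have h3 : W ⊓ centralizer ((A ⊓ centralizer (W : Set G) : Subgroup G) : Set G) = W := by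
    rw [inf_eq_left]
    intro w hw a ha
    exact (ha.2 w hw).symm
  rw [h3] at h2
  have h4 : (A ⊓ centralizer (W : Set G)).relIndex A * Nat.card ↥(A ⊓ centralizer (W : Set G)) = Nat.card A :=
    card_relIndex inf_le_left
  have h5 : q ≤ (A ⊓ centralizer (W : Set G)).relIndex A := by
    have hpos : 0 < Nat.card ↥(A ⊓ centralizer (W : Set G)) := Nat.card_pos
    have hpos2 : 0 < Nat.card ↥(W ⊓ centralizer (A : Set G)) := Nat.card_pos
    have h6 : Nat.card ↥(A ⊓ centralizer (W : Set G)) * (q * Nat.card ↥(W ⊓ centralizer (A : Set G))) ≤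
        (A ⊓ centralizer (W : Set G)).relIndex A * Nat.card ↥(A ⊓ centralizer (W : Set G)) *
          Nat.card ↥(W ⊓ centralizer (A : Set G)) := by
      rw [h4]
      exact (Nat.mul_le_mul_left _ h1).trans h2
    have h7 : (Nat.card ↥(A ⊓ centralizer (W : Set G)) * Nat.card ↥(W ⊓ centralizer (A : Set G))) * q ≤
        (Nat.card ↥(A ⊓ centralizer (W : Set G)) * Nat.card ↥(W ⊓ centralizer (A : Set G))) *
          (A ⊓ centralizer (W : Set G)).relIndex A := by
      calc _ = Nat.card ↥(A ⊓ centralizer (W : Set G)) * (q * Nat.card ↥(W ⊓ centralizer (A : Set G))) := by ring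
        _ ≤ _ := h6
        _ = _ := by ring
    exact Nat.le_of_mul_le_mul_left h7 (Nat.mul_pos hpos hpos2)
  refine h5.trans ?_
  have h6 : (A ⊓ centralizer (W : Set G)).relIndex A = (S ⊓ centralizer (W : Set G)).relIndex A := by
    rw [← Subgroup.inf_relIndex_right (S ⊓ centralizer (W : Set G)) A]
    congr 1
    rw [inf_right_comm, inf_eq_right.2 hAS]
  rw [h6]
  exact Subgroup.relIndex_le_of_le_right hAS Subgroup.index_ne_zero_of_finite

end Cfsg.Agent.H244.RootCard
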